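import Cfsg.Agent.LAY.Defs
import Cfsg.Agent.TIMM.C2He
import Cfsg.Agent.DIH.EHe
import Cfsg.Prelude.Def_Classification2

/-! Project LAY: the Held group, by counting fixed points on 2058 points. -/

set_option autoImplicit false
set_option maxRecDepth 100000
set_option exponentiation.threshold 400000

namespace Cfsg.Agent.LAY

open Cfsg Subgroup

namespace HeL

section
open H24.He H14

/-- two classes of involutions -/
theorem two_classes {G : Type*} [Group G] [Finite G] [IsSimpleGroup G] (S : Setup G)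
    (hG : Nat.card G = 4030387200) {t : G} (ht : orderOf t = 2) : IsConj (S.f cz) t ∨ IsConj (S.f ct) t := by
  obtain ⟨w, w', hw, h, hw', h'⟩ := S.conj_cases
  obtain ⟨x, hx⟩ := Setup.exists_side hw h
  obtain ⟨y, hy⟩ : ∃ y, S.flip.Side y XC0 ∨ S.flip.Side y XC1 := by
    rcases hw' with rfl | rfl
    · exact Setup.exists_side (Or.inl rfl) ((S.flip_iff (m := c14) (by decide +kernel)).2 h')
    · exact Setup.exists_side (Or.inr rfl) ((S.flip_iff (m := c24) (by decide +kernel)).2 h')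
  have := simple_M24
  obtain ⟨_, p1⟩ := pr_M24
  rcases hx with hx | hx <;> rcases hy with hy | hy
  · obtain ⟨_, p⟩ := Setup.full00 S.dual_flip hx hy
    exact absurd (hG ▸ p.le00) (by norm_num)
  · obtain ⟨_, p⟩ := Setup.full01 S.dual_flip hx hy
    exact absurd (hG ▸ p.le01) (by norm_num)
  · obtain ⟨_, p⟩ := Setup.full01 S.dual_flip.symm hy hx
    exact absurd (hG ▸ p.le01) (by norm_num)
  obtain ⟨a1, a2, a3⟩ := Setup.side1_fus hx
  obtain ⟨b1, -, b3⟩ := Setup.side1_fus hy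
  have c1 : IsConj (S.f cz) (S.f c14) := (S.flip_iff (by decide +kernel)).1 b1
  have c3 := c1.trans a2
  have c6 : IsConj (S.f cz) (S.f ca1) :=
    (c3.trans (S.flip_conj (m' := flipN ca2) (by decide +kernel) (by decide +kernel) b3)).trans
      (S.cls_conj (by decide +kernel) (by decide +kernel) (by decide +kernel) (by decide +kernel))
  have c5 : IsConj (S.f ct) (S.f ct') := (hx.1.2.isConj (v := ct) (by decide +kernel)).trans
    (S.cls_conj (by decide +kernel) (by decide +kernel) (by decide +kernel) (by decide +kernel))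
  have : Fact (Nat.Prime 2) := ⟨Nat.prime_two⟩
  obtain ⟨Q, hQ⟩ := (IsPGroup.of_card (p := 2) (n := 1) (G := zpowers t)
    (by rw [Nat.card_zpowers, ht, pow_one])).exists_le_sylow
  obtain ⟨g, hg⟩ := MulAction.exists_smul_eq G Q S.syl
  obtain ⟨u, hu, e⟩ : g * t * g⁻¹ ∈ S.pat pT := by
    rw [← S.syl_eq, ← hg, Sylow.coe_subgroup_smul]
    exact smul_mem_pointwise_smul _ (MulAut.conj g) _ (hQ (mem_zpowers t))
  have k : IsConj t (S.f u) := isConj_iff.2 ⟨g, e.symm⟩
  have h8 := (S.cls_spec hu (by rw [e, conj_mul, ← pow_two, ← ht, pow_orderOf_eq_one, mul_one, mul_inv_cancel])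
    fun e => H43.ne_one_of_orderOf ht (isConj_one_left.1 (e ▸ k))).1
  have k' := (k.trans (S.isConj_rep hu h8)).symm
  generalize cls u = c at h8 k'
  interval_cases c
  exacts [.inl k', .inl (c1.trans k'), .inl (a1.trans k'), .inl (c3.trans k'), .inr k', .inr (c5.trans k'),
    .inl (c6.trans k'), .inl ((c3.trans a3).trans k')]

end

open H58 H58.HeP DIH.EHe

local notation "𝒲" => DIH.EHe.W

/-- the fixed points -/
def Fx (g : Spor.He) : Set ℕ := {j | j < 2058 ∧ M.φ g j = j}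

/-- the points whose image differs in one of the lowest `n` bits -/
noncomputable def mvM (w : List ℕ) (n : ℕ) : ℕ :=
  Nat.rec 0 (fun t ih => Nat.lor (frcN (fun v => Nat.xor (appW HeM.nets w v) v) (pat 2058 12 t)) ih) n

noncomputable def fxM (w : List ℕ) : ℕ := Nat.xor (Nat.pred (Nat.pow 2 2058)) (mvM w 12)

theorem lt {g : Spor.He} {j : ℕ} (h : j < 2058) : M.φ g j < 2058 := perm_lt (M.φ_fix hgen g) h

theorem testBit_mvM (w : List ℕ) (j : ℕ) {n : ℕ} (hn : n ≤ 12) : (mvM w n).testBit j = true ↔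
    ∃ t < n, (pat 2058 12 t).testBit (M.φ (𝒲 w) j) ≠ (pat 2058 12 t).testBit j := by
  induction n with
  | zero => simp [mvM]
  | succ n ih =>
    have e : mvM w (n + 1) = frcN (fun v => Nat.xor (appW M.nets w v) v) (pat 2058 12 n) ||| mvM w n := rfl
    rw [e, frcN_eq, Nat.testBit_or, Bool.or_eq_true, ih (by omega), Nat.exists_lt_succ_right, or_comm]
    refine or_congr Iff.rfl ?_
    change (appW M.nets w _ ^^^ _).testBit j = true ↔ _
    rw [Nat.testBit_xor, testBit_appW M.hN, ← M.φ_wv]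
    simp [DIH.EHe.W]

theorem bits_fxM (w : List ℕ) : bits (fxM w) = Fx (𝒲 w) := by
  ext j
  change ((2 ^ 2058 - 1) ^^^ mvM w 12).testBit j = true ↔ _ ∧ _
  rw [Nat.testBit_xor, Nat.testBit_two_pow_sub_one]
  have h := testBit_mvM w j le_rfl
  rcases Nat.lt_or_ge j 2058 with hj | hj
  · have h1 := lt (g := 𝒲 w) hj
    have k : (mvM w 12).testBit j = false ↔ M.φ (𝒲 w) j = j := by
      rw [← Bool.not_eq_true, h]
      refine ⟨fun a => Nat.eq_of_testBit_eq fun t => ?_, fun a ⟨t, _, b⟩ => b (by rw [a])⟩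
      rcases Nat.lt_or_ge t 12 with ht | ht
      · have := not_not.1 (mt (fun b => ⟨t, ht, b⟩) a)
        rw [testBit_pat ht (by decide), testBit_pat ht (by decide)] at this
        simpa [h1, hj] using this
      · have : 2 ^ 12 ≤ 2 ^ t := Nat.pow_le_pow_right (by decide) ht
        rw [Nat.testBit_lt_two_pow (by omega), Nat.testBit_lt_two_pow (by omega)]
    simp [hj, k]
  · rw [M.φ_fix hgen _ j hj] at h
    have : (mvM w 12).testBit j = false := by rw [← Bool.not_eq_true, h]; simp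
    simp [this, hj.not_gt]

theorem ncard_W {w : List ℕ} {n : ℕ} (h : cntErr 12 n (fxM w) = 0) : (Fx (𝒲 w)).ncard = n :=
  bits_fxM w ▸ ncard_of_cntErr h

theorem Fx_finite (g : Spor.He) : (Fx g).Finite := (Set.finite_lt_nat 2058).subset fun _ h => h.1

theorem mem_conj {g x : Spor.He} {j : ℕ} (h : j ∈ Fx x) : M.φ g j ∈ Fx (g * x * g⁻¹) :=
  ⟨lt h.1, by rw [map_mul, map_mul, map_inv, Equiv.Perm.mul_apply, Equiv.Perm.mul_apply, pinv_self, h.2]⟩

theorem ncard_conj {x y : Spor.He} (h : IsConj x y) : (Fx x).ncard = (Fx y).ncard := by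
  have k : ∀ {x y : Spor.He}, IsConj x y → (Fx x).ncard ≤ (Fx y).ncard := fun h => by
    obtain ⟨g, rfl⟩ := isConj_iff.1 h
    exact Set.ncard_le_ncard_of_injOn _ (fun _ => mem_conj) (M.φ g).injective.injOn (Fx_finite _)
  exact le_antisymm (k h) (k h.symm)

theorem Fx_le {x y : Spor.He} (h : y ∈ zpowers x) : Fx x ⊆ Fx y := fun j hj =>
  ⟨hj.1, M.mem_St.1 (zpowers_le.2 (M.mem_St.2 hj.2) h)⟩

theorem Fx_pow {x y : Spor.He} {p : ℕ} (hp : p.Prime) (hx : x ^ p = 1) (h : y ∈ zpowers x) (h1 : y ≠ 1) :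
    Fx y = Fx x := by
  have := Fact.mk hp
  have x1 : x ≠ 1 := by rintro rfl; exact h1 (by simpa using h)
  refine Set.Subset.antisymm (Fx_le ?_) (Fx_le h)
  have e := eq_of_le_of_card_ge (zpowers_le.2 h) (by
    obtain ⟨k, rfl⟩ := h
    rw [Nat.card_zpowers, Nat.card_zpowers, orderOf_eq_prime hx x1, orderOf_eq_prime (p := p) (by
      change (x ^ k) ^ p = 1
      rw [← zpow_natCast, ← zpow_mul, mul_comm, zpow_mul, zpow_natCast, hx, one_zpow]) h1])
  exact e ▸ mem_zpowers x

/-- a subgroup centralising `t` acts on the fixed points of `t` -/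
@[reducible] noncomputable def act (R : Subgroup Spor.He) (t : Spor.He) (h : ∀ g ∈ R, Commute g t) : MulAction R (Fx t) where
  smul g j := ⟨M.φ g j, by simpa [(h g g.2).eq] using mem_conj (g := g) j.2⟩
  one_smul j := Subtype.ext (show M.φ 1 j = j by simp)
  mul_smul a b j := Subtype.ext (show M.φ (a * b) j = M.φ a (M.φ b j) by simp)

theorem modEq {p : ℕ} (hp : p.Prime) {R : Subgroup Spor.He} (hR : IsPGroup p R) {t : Spor.He}
    (h : ∀ g ∈ R, Commute g t) {X : Set ℕ} (hX : X.Finite) (k : ∀ j, (∀ g ∈ R, j ∈ Fx g) → j ∈ X) :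
    ∃ c ≤ X.ncard, (Fx t).ncard ≡ c [MOD p] := by
  have := Fact.mk hp
  let _ := act R t h
  have := (Fx_finite t).to_subtype
  refine ⟨_, ?_, hR.card_modEq_card_fixedPoints (Fx t)⟩
  have := hX.to_subtype
  exact Nat.card_le_card_of_injective (β := X)
    (fun j => ⟨j.1.1, k _ fun g hg => ⟨j.1.2.1, congrArg Subtype.val (j.2 ⟨g, hg⟩)⟩⟩)
    fun a b e => Subtype.ext (Subtype.ext (Subtype.mk.inj e))

theorem no7 {y : Spor.He} {k j : ℕ} (h : y ^ 7 ^ k = 1) (hj : j ∈ Fx y) : y = 1 := by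
  have := HeP.finite
  obtain ⟨g, -, rfl⟩ : j ∈ M.orb ⊤ 0 := by
    rw [Set.eq_of_subset_of_ncard_le (M.orb_subset_lt hgen ⊤ (p := 0) (by decide))
      (by rw [Set.ncard_eq_toFinset_card', Set.toFinset_Ico, Nat.card_Ico]; exact HeP.trans) (Set.finite_Ico _ _)]
    exact ⟨Nat.zero_le _, hj.1⟩
  have h1 := (mem_conj (g := g⁻¹) hj).2
  rw [map_inv, pinv_self, ← M.mem_St, ← index_H.2] at h1
  have h2 := H.index_mul_card
  rw [index_H.1, card_eq] at h2
  have h3 := orderOf_dvd_natCard H h1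
  rw [show Nat.card H = 1958400 by omega, inv_inv, show g⁻¹ * y * g = MulAut.conj g⁻¹ y by simp,
    MulEquiv.orderOf_eq] at h3
  exact orderOf_eq_one_iff.1 (Nat.eq_one_of_dvd_coprimes (Nat.Coprime.pow_left k (by norm_num))
    (orderOf_dvd_of_pow_eq_one h) h3)

theorem dvd7 {R : Subgroup Spor.He} (hR : IsPGroup 7 R) {t : Spor.He} (h : ∀ g ∈ R, Commute g t) :
    Nat.card R ∣ (Fx t).ncard := by
  let _ := act R t h
  have e := MulAction.selfEquivOrbitsQuotientProd (G := R) (X := Fx t) fun j => eq_bot_iff.2 fun g hg => by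
    obtain ⟨k, hk⟩ := hR g
    exact Subtype.ext (no7 (congrArg Subtype.val hk) ⟨j.2.1, congrArg Subtype.val hg⟩)
  have := Nat.card_congr e
  rw [Nat.card_prod] at this
  exact ⟨_, this.trans (mul_comm _ _)⟩

theorem pq : 𝒲 pw5 ^ 5 = 1 ∧ 𝒲 qw5 ^ 5 = 1 ∧ Commute (𝒲 pw5) (𝒲 qw5) := by
  have h := eqs
  simp only [prs, List.forall_mem_cons, W_append, W_nil] at h
  obtain ⟨p5, q5, pq, -⟩ := h
  exact ⟨by rw [← p5]; simp only [pow_succ, pow_zero, one_mul],
    by rw [← q5]; simp only [pow_succ, pow_zero, one_mul], pq⟩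

theorem fix5 {x : Spor.He} (h : orderOf x = 5) : (Fx x).ncard = 8 := by
  have := HeP.finite
  obtain ⟨p5, q5, c⟩ := pq
  have hq : 𝒲 qw5 ∉ zpowers (𝒲 pw5) := fun k => by
    have := Set.ncard_le_ncard (Set.subset_inter subset_rfl (Fx_le k)) ((Fx_finite _).inter_of_left _)
    rw [ncard_W (n := 8) (by decide +kernel), ← bits_fxM, ← bits_fxM,
      show bits _ ∩ bits _ = bits (Nat.land (fxM pw5) (fxM qw5)) from Set.ext fun j =>
        (Bool.and_eq_true_iff.symm.trans (by rw [← Nat.testBit_and]; rfl)),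
      ncard_of_cntErr (k := 12) (n := 3) (by decide +kernel)] at this
    omega
  obtain ⟨g, i, j, hi, hj, e⟩ := conj_pq c p5 q5 (ne1 1 2 (by decide +kernel) (by decide)) hq
    (by rw [card_eq]; norm_num) (y := x) (n := 1) (by rw [pow_one, ← h, pow_orderOf_eq_one])
  have x1 : g * x * g⁻¹ ≠ 1 := fun k => by rw [conj_eq_one_iff.1 k, orderOf_one] at h; omega
  rw [ncard_conj (isConj_iff.2 ⟨g, rfl⟩)]
  rcases six c p5 hi hj with rfl | ⟨k, hk, e'⟩
  · rw [Fx_pow (by norm_num) p5 (by rw [e, pow_zero, mul_one]; exact npow_mem_zpowers _ _) x1]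
    exact ncard_W (by decide +kernel)
  rw [Fx_pow (p := 5) (x := 𝒲 pw5 ^ k * 𝒲 qw5) (by norm_num)
    (by rw [(c.pow_left k).mul_pow, ← pow_mul, mul_comm k, pow_mul, p5, q5, one_pow, one_mul])
    (by rw [e, e']; exact npow_mem_zpowers _ _) x1]
  interval_cases k <;> simp only [pow_succ, pow_zero, one_mul, ← W_append] <;> exact ncard_W (by decide +kernel)

def w17 : List ℕ := [1, 2, 1, 3, 4, 6]

theorem e17 : H14.allN 12 (fun t => Nat.beq (eqsAt HeM.nets 2058 12 [((List.replicate 17 w17).flatten, [])] t) 0) = true := by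
  decide +kernel

theorem fix17 {y : Spor.He} (h : orderOf y = 17) : (Fx y).ncard = 1 := by
  have := HeP.finite
  have : Fact (Nat.Prime 17) := ⟨by norm_num⟩
  have c1 : (Fx (𝒲 w17)).ncard = 1 := ncard_W (by decide +kernel)
  have h1 : 𝒲 w17 ^ 17 = 1 := (wv_replicate _ _ _).symm.trans (M.wv_eq inj (b := 12) (by decide)
    (fun t ht => Nat.beq_eq.to_iff.1 (H14.allN_iff.1 e17 t ht)) _ List.mem_cons_self)
  have h2 := orderOf_eq_prime h1 (ne1 0 1 (by decide +kernel) (by decide))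
  have z : ∀ {y : Spor.He}, orderOf y = 17 → IsPGroup 17 (zpowers y) := fun h =>
    IsPGroup.of_card (n := 1) (by rw [Nat.card_zpowers, h, pow_one])
  obtain ⟨P, hP⟩ := (z h).exists_le_sylow
  obtain ⟨Q, hQ⟩ := (z h2).exists_le_sylow
  obtain ⟨g, hg⟩ := MulAction.exists_smul_eq Spor.He P Q
  have k : g * y * g⁻¹ ∈ zpowers (𝒲 w17) := by
    rw [← eq_zpowers (by norm_num) h2 (by rw [card_eq]; norm_num) Q.isPGroup' (hQ (mem_zpowers _)), ← hg,
      Sylow.coe_subgroup_smul]
    exact smul_mem_pointwise_smul _ (MulAut.conj g) _ (hP (mem_zpowers y))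
  rw [ncard_conj (isConj_iff.2 ⟨g, rfl⟩), Fx_pow (by norm_num) h1 k
    fun k => by rw [conj_eq_one_iff.1 k, orderOf_one] at h; omega, c1]

theorem primes {r : ℕ} (hr : r.Prime) (h5 : 5 ≤ r) (h : r ∣ Nat.card Spor.He) : r = 5 ∨ r = 7 ∨ r = 17 := by
  rw [card_eq, show 4030387200 = 2 ^ 10 * 3 ^ 3 * 5 ^ 2 * 7 ^ 3 * 17 by norm_num] at h
  simp only [hr.dvd_mul] at h
  rcases h with (((h | h) | h) | h) | h
  · have := Nat.le_of_dvd two_pos (hr.dvd_of_dvd_pow h); omega
  · have := Nat.le_of_dvd three_pos (hr.dvd_of_dvd_pow h); omega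
  · exact .inl ((Nat.prime_dvd_prime_iff_eq hr (by norm_num)).1 (hr.dvd_of_dvd_pow h))
  · exact .inr (.inl ((Nat.prime_dvd_prime_iff_eq hr (by norm_num)).1 (hr.dvd_of_dvd_pow h)))
  · exact .inr (.inr ((Nat.prime_dvd_prime_iff_eq hr (by norm_num)).1 h))

theorem noPQ {x y : Spor.He} (c : Commute x y) (hx : (orderOf x).Prime) (hy : (orderOf y).Prime)
    (h5 : 5 ≤ orderOf x) : ¬ orderOf x < orderOf y := fun hl => by
  have := HeP.finite
  have z : ∀ {y : Spor.He} {p : ℕ}, orderOf y = p → IsPGroup p (zpowers y) := fun h =>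
    IsPGroup.of_card (n := 1) (by rw [Nat.card_zpowers, h, pow_one])
  have cm : ∀ {x y : Spor.He}, Commute x y → ∀ g ∈ zpowers x, Commute g y := by
    rintro x y c _ ⟨k, rfl⟩
    exact c.zpow_left k
  rcases primes hx h5 (orderOf_dvd_natCard x) with a | a | a <;>
    rcases primes hy (by omega) (orderOf_dvd_natCard y) with b | b | b <;> try omega
  · have := dvd7 (z b) (cm c.symm)
    rw [Nat.card_zpowers, b, fix5 a] at this
    omega
  · obtain ⟨n, h1, h2⟩ := modEq (by norm_num) (z b) (cm c.symm) (Fx_finite y) fun j hj => hj y (mem_zpowers y)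
    rw [fix17 b] at h1
    rw [fix5 a, Nat.ModEq] at h2
    omega
  · have := dvd7 (z a) (cm c)
    rw [Nat.card_zpowers, a, fix17 b] at this
    omega

theorem w_2A {t : Spor.He} (h : (Fx t).ncard = 154) : LAY.W 1 (centralizer {t} : Subgroup Spor.He) := by
  have := HeP.finite
  refine w_of_noPQ (fun p hp h5 hd => ?_) fun x y c => by
    simpa only [orderOf_coe] using noPQ (x := x) (y := y) (congrArg Subtype.val c)
  have := Fact.mk hp
  obtain ⟨R0, hR⟩ := Sylow.exists_subgroup_card_pow_prime p hd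
  rw [← card_map_of_injective (subtype_injective _)] at hR
  have hc : ∀ g ∈ R0.map (Subgroup.subtype _), Commute g t := by
    rintro _ ⟨g, -, rfl⟩
    exact mem_centralizer_singleton_iff.1 g.2
  generalize R0.map (Subgroup.subtype _) = R at hR hc
  have hd' := hd.trans (card_subgroup_dvd_card _)
  rcases primes hp h5 ((dvd_pow_self p two_ne_zero).trans hd') with rfl | rfl | rfl
  · obtain ⟨p5, q5, c⟩ := pq
    have z : ∀ {y : Spor.He}, y ^ 5 = 1 → IsPGroup 5 (zpowers y) := fun h =>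
      IsPGroup.of_card_dvd_pow (n := 1) (by rwa [Nat.card_zpowers, orderOf_dvd_iff_pow_eq_one, pow_one])
    obtain ⟨P, hP⟩ := (IsPGroup.of_card hR).exists_le_sylow
    obtain ⟨Q, hQ⟩ := (IsPGroup.to_sup_of_normal_left' (z p5) (z q5) (zpowers_le.2 (centralizer_le_normalizer _ (by
      rintro _ ⟨i, rfl⟩; exact (c.zpow_left i).eq)))).exists_le_sylow
    obtain ⟨g, hg⟩ := MulAction.exists_smul_eq Spor.He P Q
    obtain rfl : R = P := eq_of_le_of_card_ge hP (by
      obtain ⟨b, hb⟩ := P.isPGroup'.exists_card_eq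
      rw [hR, hb]
      refine Nat.pow_le_pow_right (by norm_num) (not_lt.1 fun k => ?_)
      have := (pow_dvd_pow 5 k).trans (hb ▸ card_subgroup_dvd_card _)
      rw [card_eq] at this
      norm_num at this)
    obtain ⟨n, h1, h2⟩ := modEq (t := g * t * g⁻¹) hp Q.isPGroup' (fun x hx => by
      rw [← hg, Sylow.coe_subgroup_smul] at hx
      obtain ⟨x, hx, rfl⟩ := hx
      exact (hc x hx).map (MulAut.conj g)) (bits_finite (Nat.land (fxM pw5) (fxM qw5))) fun j hj => by
        have a1 := (bits_fxM _).ge (hj _ (hQ (mem_sup_left (mem_zpowers _))))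
        have a2 := (bits_fxM _).ge (hj _ (hQ (mem_sup_right (mem_zpowers _))))
        exact (Nat.testBit_and ..).trans (Bool.and_eq_true_iff.2 ⟨a1, a2⟩)
    rw [ncard_of_cntErr (k := 12) (n := 3) (by decide +kernel)] at h1
    rw [← ncard_conj (isConj_iff.2 ⟨g, rfl⟩), h, Nat.ModEq] at h2
    omega
  · have := dvd7 (IsPGroup.of_card hR) hc
    rw [hR, h] at this
    norm_num at this
  · rw [card_eq] at hd'
    norm_num at hd'

theorem lay : Lay 1 Spor.He := fun t ht => by
  have := HeP.finite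
  have := HeP.simple
  obtain ⟨h1, ⟨e⟩⟩ := H24.He.he_cent
  obtain ⟨S, hS⟩ := H24.He.exists_setup' (H43.ne_one_of_orderOf h1) e
  have e1 : ∀ x, 𝒲 [x] = el x := fun x => mul_one _
  have a1 : (Fx (el 1)).ncard = 154 := e1 1 ▸ ncard_W (by decide +kernel)
  have a5 : (Fx (el 5)).ncard = 42 := e1 5 ▸ ncard_W (by decide +kernel)
  have o1 : orderOf (el 1) = 2 := H43.orderOf_two (mul_eq_one_iff_eq_inv.2 (HeP.R.hinv 1 (by decide)))
    (e1 1 ▸ ne1 5 6 (by decide +kernel) (by decide))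
  rcases two_classes S card_eq ht with h | h
  · refine W.conj (w_of_card (a := 10) (b := 1) (p := 7) (by norm_num) ?_) (hS ▸ h)
    rw [le_antisymm H24.He.card_Ce (H24.He.le_card_Hm.trans (Nat.card_congr e.toEquiv).ge)]
    norm_num
  rcases two_classes S card_eq o1 with h' | h'
  · rw [hS] at h'
    have := ncard_conj h'
    omega
  · exact w_2A ((ncard_conj (h.symm.trans h')).trans a1)

end HeL

theorem lay_He {G : Type*} [Group G] [Finite G] (h : Spor.IsoHe G) : Lay 1 G :=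
  let ⟨e⟩ := h; HeL.lay.congr e

end Cfsg.Agent.LAY
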